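import Cfsg.Agent.H715.Fpr.RowTools
import Cfsg.Agent.H305.SepJ1

/-!
# Fixed point ratios: `J1` (helper715)
-/

set_option autoImplicit false

namespace Cfsg.Agent.H715.Fpr.J1

open Subgroup Cfsg.Agent.H409 Cfsg.Agent.OrdDiv Cfsg.Agent.H940.Eng Cfsg.Agent.H940.Eng.D Cfsg.Agent.H305.SepJ1

instance instFinG : Finite G := fin
instance instSimpleG : IsSimpleGroup G := simple

theorem cn3 {R : Subgroup G} (hR : Nat.card R = 3) : Nat.card (normalizer (R : Set G)) ≤ 60 := by
  have h1 : Nat.card (centralizer (R : Set G)) = 30 := by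
    obtain ⟨x, hx, rfl⟩ := eq_zpowers Nat.prime_three hR
    rw [cent_zpowers, local'.cent3 x hx]
  have := card_normalizer_le Nat.prime_three hR
  rw [h1] at this
  exact this

theorem acts7 {p : ℕ} (hp : isPrimeB p = true) (h : (42 % p ^ 1 == 0 && 7 % p ^ 1 != 0) = true) : Acts p 7 G :=
  acts_of card hp (by decide +kernel) (by decide +kernel) (fun _ hR => cn7 hR) 1 h

theorem acts11 {p : ℕ} (hp : isPrimeB p = true) (h : (110 % p ^ 1 == 0 && 11 % p ^ 1 != 0) = true) : Acts p 11 G :=
  acts_of card hp (by decide +kernel) (by decide +kernel) (fun _ hR => cn11 hR) 1 h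

theorem row2 (B : Base) : FprRow 3 1 2 G :=
  row_of_acts (ctx B) (by decide +kernel) (by decide +kernel) (acts7 (by decide +kernel) (by decide +kernel))
    (by decide +kernel) (acts11 (by decide +kernel) (by decide +kernel)) 0 (by decide +kernel)

theorem row3 (B : Base) : FprRow 4 1 3 G :=
  row_of_norm (ctx B) (by decide +kernel) (fun _ hR => cn3 hR) 0 (by decide +kernel)

theorem row5 (B : Base) : FprRow 6 1 5 G :=
  row_of_norm (ctx B) (by decide +kernel) (fun _ hR => (cn5 hR).2.le) 0 (by decide +kernel)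

theorem row7 (B : Base) : FprRow 8 1 7 G :=
  row_of_norm (ctx B) (by decide +kernel) (fun _ hR => (cn7 hR).2.le) 0 (by decide +kernel)

theorem row11 (B : Base) : FprRow 12 1 11 G :=
  row_of_norm (ctx B) (by decide +kernel) (fun _ hR => (cn11 hR).2.le) 0 (by decide +kernel)

theorem row19 (B : Base) : FprRow 20 1 19 G :=
  row_of_norm (ctx B) (by decide +kernel) (fun _ hR => (cn19 hR).2.le) 0 (by decide +kernel)

/-- **the rows of `J1`** -/
theorem row (B : Base) {p : ℕ} (hp : p.Prime) (hd : p ∣ Nat.card G) : FprRow (p + 1) 1 p G := by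
  have h1 := valid_mem v_j1 hp (by rw [← card]; exact hd)
  simp only [l_j1, List.map_cons, List.map_nil, List.mem_cons, List.not_mem_nil, or_false] at h1
  rcases h1 with rfl | rfl | rfl | rfl | rfl | rfl
  · exact row2 B
  · exact row3 B
  · exact row5 B
  · exact row7 B
  · exact row11 B
  · exact row19 B

universe u in
theorem rowIso (B : Base) {S : Type u} [Group S] (h : Cfsg.Spor.IsoJ1 S) {p : ℕ} (hp : p.Prime)
    (hd : p ∣ Nat.card S) : FprRow (p + 1) 1 p S := by
  obtain ⟨e⟩ := h
  exact (row B hp (by rw [← Nat.card_congr e.toEquiv]; exact hd)).of_mulEquiv hp e.symm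

end Cfsg.Agent.H715.Fpr.J1
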