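import Cfsg.Agent.H715.Fpr.Row2
import Cfsg.Agent.H940.RowJ4

/-!
# Fixed point ratios: `J4` (helper715)
-/

set_option autoImplicit false

namespace Cfsg.Agent.H715.Fpr.J4

open Subgroup Cfsg.Agent.H409 Cfsg.Agent.OrdDiv Cfsg.Agent.H940.Eng Cfsg.Agent.H940.Eng.D Cfsg.Agent.H940.RowJ4
open Cfsg.Agent.H859

instance instFinG : Finite G := fin
instance instSimpleG : IsSimpleGroup G := simple

theorem row2 (B : Base) : FprRow 3 1 2 G :=
  row_of_act2 (ctx B) (q := 37) (N := 444) (by decide +kernel) (by decide +kernel) (by decide +kernel)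
    (acts_of card (by decide +kernel) (by decide +kernel) (by decide +kernel) (fun _ hR => BigNum.data37 hR) 2
      (by decide +kernel))
    (fun _ hR => (BigNum.data37 hR).2.le) 39 0 lb_zero 0 (by decide +kernel)

theorem row3 (B : Base) : FprRow 4 1 3 G :=
  row_of_act2 (ctx B) (q := 37) (N := 444) (by decide +kernel) (by decide +kernel) (by decide +kernel)
    (acts_of card (by decide +kernel) (by decide +kernel) (by decide +kernel) (fun _ hR => BigNum.data37 hR) 1
      (by decide +kernel))
    (fun _ hR => (BigNum.data37 hR).2.le) 53 0 lb_zero 0 (by decide +kernel)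

theorem row5 (B : Base) : FprRow 6 1 5 G :=
  row_of_act2 (ctx B) (q := 31) (N := 310) (by decide +kernel) (by decide +kernel) (by decide +kernel)
    (acts_of card (by decide +kernel) (by decide +kernel) (by decide +kernel) (fun _ hR => BigNum.data31 hR) 1
      (by decide +kernel))
    (fun _ hR => (BigNum.data31 hR).2.le) 72 0 lb_zero 0 (by decide +kernel)

theorem row7 (B : Base) : FprRow 8 1 7 G :=
  row_of_act2 (ctx B) (q := 43) (N := 602) (by decide +kernel) (by decide +kernel) (by decide +kernel)
    (acts_of card (by decide +kernel) (by decide +kernel) (by decide +kernel) (fun _ hR => BigNum.data43 hR) 1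
      (by decide +kernel))
    (fun _ hR => (BigNum.data43 hR).2.le) 135 0 lb_zero 0 (by decide +kernel)

theorem row11 (B : Base) : FprRow 12 1 11 G :=
  row_of_act2 (ctx B) (q := 23) (N := 506) (by decide +kernel) (by decide +kernel) (by decide +kernel)
    (acts_of card (by decide +kernel) (by decide +kernel) (by decide +kernel) (fun _ hR => BigNum.data23 hR) 1
      (by decide +kernel))
    (fun _ hR => (BigNum.data23 hR).2.le) 528 0 lb_zero 0 (by decide +kernel)

theorem row23 (B : Base) : FprRow 24 1 23 G :=
  row_of_norm2 (ctx B) (by decide +kernel) (fun _ hR => (BigNum.data23 hR).2.le) 528 0 lb_zero 0 (by decide +kernel)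

theorem row29 (B : Base) : FprRow 30 1 29 G :=
  row_of_norm2 (ctx B) (by decide +kernel) (fun _ hR => (BigNum.data29' hR).2.le) 840 0 lb_zero 0 (by decide +kernel)

theorem row31 (B : Base) : FprRow 32 1 31 G :=
  row_of_norm2 (ctx B) (by decide +kernel) (fun _ hR => (BigNum.data31 hR).2.le) 320 0 lb_zero 0 (by decide +kernel)

theorem row37 (B : Base) : FprRow 38 1 37 G :=
  row_of_norm2 (ctx B) (by decide +kernel) (fun _ hR => (BigNum.data37 hR).2.le) 456 0 lb_zero 0 (by decide +kernel)

theorem row43 (B : Base) : FprRow 44 1 43 G :=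
  row_of_norm2 (ctx B) (by decide +kernel) (fun _ hR => (BigNum.data43 hR).2.le) 616 0 lb_zero 0 (by decide +kernel)

/-- **the rows of `J4`** -/
theorem row (B : Base) {p : ℕ} (hp : p.Prime) (hd : p ∣ Nat.card G) : FprRow (p + 1) 1 p G := by
  have h1 := valid_mem v_j4 hp (by rw [← card]; exact hd)
  simp only [l_j4, List.map_cons, List.map_nil, List.mem_cons, List.not_mem_nil, or_false] at h1
  rcases h1 with rfl | rfl | rfl | rfl | rfl | rfl | rfl | rfl | rfl | rfl
  · exact row2 B
  · exact row3 B
  · exact row5 B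
  · exact row7 B
  · exact row11 B
  · exact row23 B
  · exact row29 B
  · exact row31 B
  · exact row37 B
  · exact row43 B

universe u in
theorem rowIso (B : Base) {S : Type u} [Group S] (h : Cfsg.Spor.IsoJ4 S) {p : ℕ} (hp : p.Prime)
    (hd : p ∣ Nat.card S) : FprRow (p + 1) 1 p S := by
  obtain ⟨e⟩ := h
  exact (row B hp (by rw [← Nat.card_congr e.toEquiv]; exact hd)).of_mulEquiv hp e.symm

end Cfsg.Agent.H715.Fpr.J4
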