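import Cfsg.Agent.H715.Fpr.MathData
import Cfsg.Agent.H715.Fpr.ReeTool
import Cfsg.Agent.H715.Fpr.GenM11
import Cfsg.Agent.SporadicA.M11Facts2

/-!
# Fixed point ratios: `M11` (helper715)
-/

set_option autoImplicit false

namespace Cfsg.Agent.H715.Fpr.M11

open Cfsg Subgroup Cfsg.Agent.H409 Cfsg.Agent.OrdDiv Cfsg.Agent.H940.Eng Cfsg.Agent.H940.Eng.D
open Cfsg.Agent.H715.Fpr.MathData

theorem fin : Finite Spor.M11 := Nat.finite_of_card_ne_zero (by rw [card11]; decide)

def loc : List LD := [⟨5, 5, [(2, 2), (5, 1)]⟩, ⟨11, 11, [(5, 1), (11, 1)]⟩]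

theorem ctx (B : Base) : Ctx Spor.M11 l_m11 n_m11 o_m11 loc where
  fin := fin
  simple := simple11
  card := card11
  val := v_m11
  nodup := nd_m11
  ords := ords_m11 B
  loc := by
    have := fin
    have := simple11
    intro ld hld
    simp only [loc, List.mem_cons, List.not_mem_nil, or_false] at hld
    rcases hld with rfl | rfl
    · exact loc_of_eq card11 (by decide +kernel) (by decide +kernel) (by decide +kernel) fun R hR => by
        obtain ⟨h1, h2⟩ := cn11_5 hR
        rw [h1, h2]; decide
    · exact loc_of_eq card11 (by decide +kernel) (by decide +kernel) (by decide +kernel) fun R hR => by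
        obtain ⟨h1, h2⟩ := cn11_11 hR
        rw [h1, h2]; decide

theorem row2 (B : Base) : FprRow 3 1 2 Spor.M11 := by
  have := fin
  exact row_of_act3 (ctx B) (q := 5) (N := 20) (by decide +kernel) (by decide +kernel) (by decide +kernel)
    (acts_of card11 (by decide +kernel) (by decide +kernel) (by decide +kernel) (fun _ hR => cn11_5 hR) 1
      (by decide +kernel))
    (fun _ hR => (cn11_5 hR).2) 24 0 lb_zero [11, 22] 0 (by decide +kernel) (by decide +kernel)

theorem row5 (B : Base) : FprRow 6 1 5 Spor.M11 := by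
  have := fin
  exact row_of_act3 (ctx B) (q := 11) (N := 55) (by decide +kernel) (by decide +kernel) (by decide +kernel)
    (acts_of card11 (by decide +kernel) (by decide +kernel) (by decide +kernel) (fun _ hR => cn11_11 hR) 1
      (by decide +kernel))
    (fun _ hR => (cn11_11 hR).2) 60 0 lb_zero [12] 0 (by decide +kernel) (by decide +kernel)

theorem row11 (B : Base) : FprRow 12 1 11 Spor.M11 :=
  row_of_norm3 (ctx B) (by decide +kernel) (by decide +kernel) (by decide +kernel) (fun _ hR => (cn11_11 hR).2)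
    60 0 lb_zero [12] 0 (by decide +kernel) (by decide +kernel)

/-! ### the prime 3 -/

/-- elements of order 3: the number of fixed points mod 9 -/
theorem fix3 {x : Spor.M11} (hx : orderOf x = 3) (H : Subgroup Spor.M11) :
    Nat.card (MulAction.fixedBy (Spor.M11 ⧸ H) x) % 9 = Nat.card (Spor.M11 ⧸ H) % 9 ∧
      Nat.card (MulAction.fixedBy (Spor.M11 ⧸ H) x) ≤ 18 := by
  have := fin
  have f3 := Fact.mk Nat.prime_three
  refine ⟨?_, ?_⟩
  · obtain ⟨P, hP⟩ := (IsPGroup.of_card (G := zpowers x) (p := 3) (n := 1)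
      (by rw [Nat.card_zpowers, hx, pow_one])).exists_le_sylow
    have hxP : x ∈ (P : Subgroup Spor.M11) := hP (mem_zpowers x)
    have hx1 : x ≠ 1 := by
      rintro rfl
      rw [orderOf_one] at hx
      omega
    obtain ⟨k, hk⟩ := fix_sylow_modEq (H := H) (P := (P : Subgroup Spor.M11))
      (f := Nat.card (MulAction.fixedBy (Spor.M11 ⧸ H) x)) fun s hs hs1 => by
        obtain ⟨g, -, hg⟩ := SporadicA.M11Facts2.exists_conj_of_mem_sylow_three isM11 P hxP hx1 hs hs1
        -- `g * s * g⁻¹ = x`
        have h1 := card_fixedBy_conj H s g⁻¹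
        rw [inv_inv, hg] at h1
        exact h1.symm
    have h9 : Nat.card (P : Subgroup Spor.M11) = 9 := SporadicA.M11Three.card_P isM11 P
    rw [h9] at hk
    omega
  · exact (fix_le_cent H x).trans (SporadicA.M11Facts2.card_centralizer_three isM11 hx).le

theorem row3 (B : Base) : FprRow 4 1 3 Spor.M11 := by
  have := fin
  refine row_of_small (ctx B) (D := ⟨3, [], [18], [], []⟩) (K := 72) (lb := 0) (allow := [11, 22, 55]) (bd := 0)
    ⟨by decide +kernel, by simp, ?_, by simp, by simp⟩ (by decide +kernel) lb_zero fun H hH hm => ?_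
  · intro c hc
    rw [List.mem_singleton.1 hc]
    exact ⟨GenM11.A, ⟨1, by rw [GenM11.order_A]; rfl⟩,
      (SporadicA.M11Facts2.card_centralizer_three isM11 GenM11.order_A).le⟩
  · by_contra hcon
    push Not at hcon
    have h1 := hcon GenM11.A ⟨1, by rw [GenM11.order_A]; rfl⟩
    have h2 := hcon GenM11.B ⟨1, by rw [GenM11.order_B]; rfl⟩
    obtain ⟨h3, h4⟩ := fix3 GenM11.order_A H
    obtain ⟨h5, h6⟩ := fix3 GenM11.order_B H
    have h7 := fix_add_le GenM11.closure_top hH.1
    have hcard : Nat.card (Spor.M11 ⧸ H) = H.index := rfl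
    have e : (⟨3, [], [18], [], []⟩ : Dat2).p = 3 := rfl
    rw [e] at h1 h2
    rw [hcard] at h1 h2 h3 h5 h7
    simp only [List.mem_cons, List.not_mem_nil, or_false] at hm
    rcases hm with hm | hm | hm <;> rw [hm] at h1 h2 h3 h5 h7 <;> omega

/-- **the rows of `M11`** -/
theorem row (B : Base) {p : ℕ} (hp : p.Prime) (hd : p ∣ Nat.card Spor.M11) : FprRow (p + 1) 1 p Spor.M11 := by
  have h1 := valid_mem v_m11 hp (by rw [← card11]; exact hd)
  simp only [l_m11, List.map_cons, List.map_nil, List.mem_cons, List.not_mem_nil, or_false] at h1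
  rcases h1 with rfl | rfl | rfl | rfl
  · exact row2 B
  · exact row3 B
  · exact row5 B
  · exact row11 B

universe u in
theorem rowIso (B : Base) {S : Type u} [Group S] (h : Cfsg.Spor.IsoM11 S) {p : ℕ} (hp : p.Prime)
    (hd : p ∣ Nat.card S) : FprRow (p + 1) 1 p S := by
  obtain ⟨e⟩ := h
  have := fin
  exact (row B hp (by rw [← Nat.card_congr e.toEquiv]; exact hd)).of_mulEquiv hp e.symm

end Cfsg.Agent.H715.Fpr.M11
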